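import Cfsg.Agent.H607.TW.Defs
import Cfsg.Agent.Lib.Cores
import Cfsg.Agent.SignalizersComponents.Components
import Cfsg.Agent.SignalizersComponents.ComponentImage
import Cfsg.Agent.SignalizersComponents.ComponentExists

/-!
# S3694, T3: invariant subalgebras, the abstract part (helper748)

* `le_or_eq` : a subgroup `K ≤ N` normalised by `A` lies in `A` or is `N`;
* `no_comp` : `A` has no component; `bot_of_pgroup` : normal `p`-subgroups of `A`, `p ≠ r`, are trivial;
* `HE ι E` : the elements of `S` with matrix in `E`; `HE_le` : `π (HE ι E) ≤ A` for `E ≠ ⊤` invariant;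
* `mem_jac` : the Jacobson radical of a finite ring.
-/

set_option autoImplicit false

namespace Cfsg.Agent.H748.TW

open Subgroup Cfsg Cfsg.Agent.H607.TW Cfsg.Agent.SignalizersComponents.Components

universe u

section Group

variable {G : Type u} [Group G] {N A : Subgroup G} {r : ℕ}

theorem le_normalizer_of {A K : Subgroup G} (h : ∀ a ∈ A, ∀ k ∈ K, a * k * a⁻¹ ∈ K) :
    A ≤ normalizer (K : Set G) := by
  intro a ha
  rw [mem_normalizer_iff]
  intro k
  refine ⟨fun hk => h a ha k hk, fun hk => ?_⟩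
  have h1 := h a⁻¹ (inv_mem ha) _ hk
  have h2 : a⁻¹ * (a * k * a⁻¹) * a⁻¹⁻¹ = k := by group
  rwa [h2] at h1

/-- **maximality** -/
theorem le_or_eq (h : Loc N A r) {K : Subgroup G} (hK : K ≤ N) (hn : A ≤ normalizer (K : Set G)) :
    K ≤ A ∨ K = N := by
  by_contra hcon
  push Not at hcon
  obtain ⟨h1, h2⟩ := hcon
  have h3 : A ⊔ K = ⊤ := h.max.2 _ (left_lt_sup.2 h1)
  have h4 : (K : Subgroup G).Normal := by
    rw [← normalizer_eq_top_iff, eq_top_iff, ← h3]
    exact sup_le hn le_normalizer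
  have h5 := h.simple
  rcases h5.eq_bot_or_eq_top_of_normal (K.subgroupOf N) inferInstance with h6 | h6
  · apply h1
    rw [subgroupOf_eq_bot, disjoint_iff, inf_eq_left.2 hK] at h6
    rw [h6]
    exact bot_le
  · rw [subgroupOf_eq_top] at h6
    exact h2 (le_antisymm hK h6)

/-- `A` has no component -/
theorem no_comp [Finite G] (h : Loc N A r) {K : Subgroup ↥A} (hK : IsComponent K) : False := by
  have hr : Fact r.Prime := ⟨h.prime⟩
  have h1 : K ≤ pCore r ↥A := by
    rw [← h.star]
    exact (component_le_layer hK).trans le_sup_left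
  have h2 : IsPGroup r K := (Lib.Cores.pCore_isPGroup r).to_le h1
  have h3 : Group.IsNilpotent K := h2.isNilpotent
  exact quasisimple_not_isSolvable hK.2 inferInstance

theorem bot_of_pgroup [Finite G] (h : Loc N A r) {K : Subgroup G} (hKA : K ≤ A) (hn : A ≤ normalizer (K : Set G))
    {p : ℕ} (hp : p.Prime) (hpr : p ≠ r) (hP : IsPGroup p K) : K = ⊥ := by
  have hr : Fact r.Prime := ⟨h.prime⟩
  have hp' : Fact p.Prime := ⟨hp⟩
  have h1 : (K.subgroupOf A).Normal := (normal_subgroupOf_iff_le_normalizer hKA).2 hn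
  have h2 : IsPGroup p (K.subgroupOf A) := hP.of_equiv (subgroupOfEquivOfLe hKA).symm
  have h3 : K.subgroupOf A ≤ pCore r ↥A := by
    rw [← h.star]
    exact (Lib.Cores.le_pCore h1 h2).trans ((Lib.Cores.pCore_le_fittingSubgroup p).trans le_sup_right)
  have h4 : IsPGroup r (K.subgroupOf A) := (Lib.Cores.pCore_isPGroup r).to_le h3
  have h5 := IsPGroup.disjoint_of_ne p r hpr _ _ h2 h4
  rw [disjoint_self, subgroupOf_eq_bot, disjoint_iff, inf_eq_left.2 hKA] at h5
  exact h5

theorem not_pgroup [Finite G] (h : Loc N A r) {p : ℕ} (hp : p.Prime) (hP : IsPGroup p N) : False := by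
  have hp' : Fact p.Prime := ⟨hp⟩
  have hs := h.simple
  have hnt : Nontrivial ↥N := hs.toNontrivial
  have h1 : Nontrivial (center ↥N) := hP.center_nontrivial
  apply h.nonab
  rcases hs.eq_bot_or_eq_top_of_normal (center ↥N) inferInstance with h2 | h2
  · rw [h2] at h1
    exact absurd h1 (not_nontrivial _)
  · exact ⟨⟨fun a b => (mem_center_iff.1 (h2 ▸ mem_top b : b ∈ center ↥N) a)⟩⟩

end Group

section Model

variable {G : Type u} [Group G] {N A : Subgroup G} {r : ℕ} {F : Type} [Field F] {n : ℕ} {S : Type} [Group S]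
  {ι : S →* Matrix.GeneralLinearGroup (Fin n) F} {π : S →* G}

theorem mt_mul (s t : S) : mt ι (s * t) = mt ι s * mt ι t := by
  unfold Cfsg.Agent.H607.TW.mt
  rw [map_mul]
  rfl

theorem mt_one : mt ι 1 = 1 := by
  unfold Cfsg.Agent.H607.TW.mt
  rw [map_one]
  rfl

theorem mt_inj (hι : Function.Injective ι) {s t : S} (h : mt ι s = mt ι t) : s = t := hι (Units.ext h)

theorem mt_mul_inv (s : S) : mt ι s * mt ι s⁻¹ = 1 := by rw [← mt_mul, mul_inv_cancel, mt_one]

theorem mt_inv_mul (s : S) : mt ι s⁻¹ * mt ι s = 1 := by rw [← mt_mul, inv_mul_cancel, mt_one]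

/-- the elements of `S` with matrix in `E` -/
def HE (ι : S →* Matrix.GeneralLinearGroup (Fin n) F) [Finite S] (E : Subalgebra F (Matrix (Fin n) (Fin n) F)) : Subgroup S where
  carrier := {s | mt ι s ∈ E}
  one_mem' := by
    show mt ι 1 ∈ E
    rw [mt_one]
    exact one_mem E
  mul_mem' := by
    intro a b ha hb
    show mt ι (a * b) ∈ E
    rw [mt_mul]
    exact mul_mem ha hb
  inv_mem' := by
    intro a ha
    have h1 : ∀ k : ℕ, mt ι (a ^ k) ∈ E := by
      intro k
      induction k with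
      | zero => rw [pow_zero, mt_one]; exact one_mem E
      | succ k ih => rw [pow_succ, mt_mul]; exact mul_mem ih ha
    have h2 : a⁻¹ = a ^ (orderOf a - 1) := by
      rw [inv_eq_iff_mul_eq_one, ← pow_succ', Nat.sub_add_cancel (orderOf_pos a), pow_orderOf_eq_one]
    show mt ι a⁻¹ ∈ E
    rw [h2]
    exact h1 _

theorem mem_HE [Finite S] {E : Subalgebra F (Matrix (Fin n) (Fin n) F)} {s : S} : s ∈ HE ι E ↔ mt ι s ∈ E := Iff.rfl

/-- the lifts of the elements of `A` -/
theorem exists_lift (hM : Model N ι π) (g : G) : ∃ τ, Ind ι π g τ := by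
  obtain ⟨B, σ, h | h⟩ := hM.lift g
  · exact ⟨_, h⟩
  · exact ⟨_, h⟩

theorem HE_norm [Finite S] (hM : Model N ι π) {E : Subalgebra F (Matrix (Fin n) (Fin n) F)} (hE : Inv ι π A E) :
    A ≤ normalizer (((HE ι E).map π : Subgroup G) : Set G) := by
  apply le_normalizer_of
  rintro a ha _ ⟨s, hs, rfl⟩
  obtain ⟨τ, hτ⟩ := exists_lift hM a
  rcases hτ with hτ' | hτ'
  · obtain ⟨s', h1, h2⟩ := hτ'.2 s
    refine ⟨s', ?_, h2⟩
    show mt ι s' ∈ E
    rw [h1]
    exact hE a ha τ (Or.inl hτ') _ hs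
  · obtain ⟨s', h1, h2⟩ := hτ'.2 s
    rw [← h2]
    refine inv_mem ⟨s', ?_, rfl⟩
    show mt ι s' ∈ E
    rw [h1]
    exact hE a ha τ (Or.inr hτ') _ hs

theorem map_le_N (hM : Model N ι π) (H : Subgroup S) : H.map π ≤ N := by
  rw [← hM.range]
  exact map_le_range π H

/-- **the group of a proper invariant subalgebra lies in `A`** -/
theorem HE_le [Finite S] (h : Loc N A r) (hM : Model N ι π) {E : Subalgebra F (Matrix (Fin n) (Fin n) F)}
    (hE : Inv ι π A E) (hne : E ≠ ⊤) : (HE ι E).map π ≤ A := by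
  rcases le_or_eq h (map_le_N hM _) (HE_norm hM hE) with h1 | h1
  · exact h1
  · exfalso
    apply hne
    have h2 : ∀ s : S, mt ι s ∈ E := by
      intro s
      have h3 : π s ∈ (HE ι E).map π := by
        rw [h1, ← hM.range]
        exact ⟨s, rfl⟩
      obtain ⟨t, ht, hts⟩ := h3
      have h4 : π (s * t⁻¹) = 1 := by rw [map_mul, map_inv, hts, mul_inv_cancel]
      obtain ⟨c, hc⟩ := (hM.ker _).1 h4
      have h5 : mt ι s = c • mt ι t := by
        have h6 : s = s * t⁻¹ * t := by group
        rw [h6, mt_mul, hc, smul_mul_assoc, one_mul]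
      rw [h5]
      exact E.smul_mem ht c
    rw [eq_top_iff]
    intro x _
    have h3 : x ∈ Submodule.span F (Set.range (mt ι)) := by
      rw [hM.span]
      exact Submodule.mem_top
    have h4 : Submodule.span F (Set.range (mt ι)) ≤ Subalgebra.toSubmodule E := by
      rw [Submodule.span_le]
      rintro _ ⟨s, rfl⟩
      exact h2 s
    exact h4 h3

theorem finite_S [Fintype F] (hM : Model N ι π) : Finite S := Finite.of_injective _ hM.inj

theorem tau_one {τ : Matrix (Fin n) (Fin n) F ≃+ Matrix (Fin n) (Fin n) F} {g : G} (h : Ind ι π g τ) : τ 1 = 1 := by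
  obtain ⟨y, hy⟩ := τ.surjective 1
  rcases h with h | h
  · have h1 := h.1 1 y
    rw [one_mul, hy, mul_one] at h1
    exact h1.symm
  · have h1 := h.1 1 y
    rw [one_mul, hy, one_mul] at h1
    exact h1.symm

theorem tau_pow {τ : Matrix (Fin n) (Fin n) F ≃+ Matrix (Fin n) (Fin n) F} {g : G} (h : Ind ι π g τ)
    (x : Matrix (Fin n) (Fin n) F) (k : ℕ) : τ (x ^ k) = τ x ^ k := by
  induction k with
  | zero => rw [pow_zero, pow_zero, tau_one h]
  | succ k ih =>
    rcases h with h' | h'
    · rw [pow_succ, h'.1, ih, pow_succ]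
    · rw [pow_succ, h'.1, ih, pow_succ']

end Model

/-- the Jacobson radical of a finite ring -/
theorem mem_jac {R : Type*} [Ring R] [Finite R] {x : R} :
    x ∈ Ring.jacobson R ↔ ∀ y : R, IsNilpotent (y * x) := by
  rw [← Ideal.jacobson_bot]
  constructor
  · intro hx y
    obtain ⟨k, hk⟩ := IsArtinianRing.isNilpotent_jacobson_bot (R := R)
    refine ⟨k, ?_⟩
    have h1 : y * x ∈ Ideal.jacobson (⊥ : Ideal R) := Ideal.mul_mem_left _ _ hx
    have h2 := Ideal.pow_mem_pow h1 k
    rw [hk] at h2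
    simpa using h2
  · intro h
    rw [Ideal.mem_jacobson_iff]
    intro y
    have h1 : IsUnit (1 + y * x) := (h y).isUnit_one_add
    obtain ⟨z, hz⟩ := h1.exists_left_inv
    refine ⟨z, ?_⟩
    rw [Submodule.mem_bot, mul_assoc, ← hz]
    rw [mul_add, mul_one]
    abel

/-- nilpotency of products -/
theorem nil_comm {R : Type*} [Ring R] {x y : R} (h : IsNilpotent (x * y)) : IsNilpotent (y * x) := by
  obtain ⟨k, hk⟩ := h
  refine ⟨k + 1, ?_⟩
  have h1 : ∀ k : ℕ, (y * x) ^ (k + 1) = y * (x * y) ^ k * x := by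
    intro k
    induction k with
    | zero => simp
    | succ k ih => rw [pow_succ, ih, pow_succ (x * y)]; simp only [mul_assoc]
  rw [h1, hk, mul_zero, zero_mul]

end Cfsg.Agent.H748.TW
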