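import Cfsg.Agent.H748.TW.SubBase
import Cfsg.Agent.SignalizersComponents.SLQuasisimple
import Cfsg.Agent.SignalizersComponents.CompBasic

/-!
# S3694, T3: the simple factors of an invariant subalgebra, linear case (helper748)

`comp_false` : a quasisimple group `T` with a homomorphism `ψ : T → S`, injective, with image in `HE ι E` and normalised by `HE ι E`,
does not exist (for every `Model`, `E ≠ ⊤` invariant).
-/

set_option autoImplicit false
set_option linter.unusedSectionVars false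

namespace Cfsg.Agent.H748.TW

open Subgroup Cfsg Cfsg.Agent.H607.TW

universe u

/-- a quasisimple subgroup, normal in a normal subgroup of `A`, does not exist -/
theorem qs_false {G : Type u} [Group G] [Finite G] {N A : Subgroup G} {r : ℕ} (h : Loc N A r) {Q H : Subgroup G} (hH : H ≤ A)
    (hAH : A ≤ normalizer (H : Set G)) (hQ : Q ≤ H) (hHQ : H ≤ normalizer (Q : Set G)) (hq : IsQuasisimple ↥Q) : False := by
  refine no_comp h (K := Q.subgroupOf A) ⟨?_, ?_⟩
  · refine Subgroup.IsSubnormal.step _ (H.subgroupOf A) (comap_mono hQ) ?_ ?_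
    · exact Subgroup.Normal.isSubnormal ((normal_subgroupOf_iff_le_normalizer hH).2 hAH)
    · refine ⟨fun x hx y => ?_⟩
      rw [mem_subgroupOf, mem_subgroupOf] at hx ⊢
      exact (mem_normalizer_iff.1 (hHQ y.2) _).1 hx
  · exact Cfsg.Agent.SignalizersComponents.Components.isQuasisimple_of_mulEquiv
      (subgroupOfEquivOfLe (hQ.trans hH)).symm hq

section

variable {G : Type u} [Group G] [Finite G] {N A : Subgroup G} {r : ℕ} {F : Type} [Field F] [Fintype F] {n : ℕ} {S : Type}
  [Group S] {ι : S →* Matrix.GeneralLinearGroup (Fin n) F} {π : S →* G}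

theorem comp_false [Finite S] (h : Loc N A r) (hM : Model N ι π) {E : Subalgebra F (Matrix (Fin n) (Fin n) F)}
    (hE : Inv ι π A E) (hne : E ≠ ⊤) {T : Type} [Group T] (hT : IsQuasisimple T) (ψ : T →* S)
    (hψ : Function.Injective ψ) (hm : ∀ t, mt ι (ψ t) ∈ E)
    (hn : ∀ s : S, mt ι s ∈ E → ∀ t, ∃ t', s * ψ t * s⁻¹ = ψ t') : False := by
  refine qs_false h (Q := (π.comp ψ).range) (H := (HE ι E).map π) (HE_le h hM hE hne) (HE_norm hM hE) ?_ ?_ ?_
  · rintro _ ⟨t, rfl⟩
    exact ⟨ψ t, hm t, rfl⟩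
  · apply le_normalizer_of
    rintro _ ⟨s, hs, rfl⟩ _ ⟨t, rfl⟩
    obtain ⟨t', ht'⟩ := hn s hs t
    refine ⟨t', ?_⟩
    show π (ψ t') = π s * π (ψ t) * (π s)⁻¹
    rw [← ht', map_mul, map_mul, map_inv]
  · have hnt : Nontrivial ↥((π.comp ψ).range) := by
      by_contra hcon
      rw [not_nontrivial_iff_subsingleton] at hcon
      have h1 : ∀ t, π (ψ t) = 1 := by
        intro t
        have h2 : (⟨π (ψ t), ⟨t, rfl⟩⟩ : ↥((π.comp ψ).range)) = 1 := Subsingleton.elim _ _
        exact congrArg Subtype.val h2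
      apply Cfsg.Agent.SignalizersComponents.Components.quasisimple_not_isMulCommutative hT
      refine ⟨⟨fun a b => ?_⟩⟩
      apply hψ
      rw [map_mul, map_mul]
      apply mt_inj hM.inj
      obtain ⟨c, hc⟩ := (hM.ker _).1 (h1 a)
      rw [mt_mul, mt_mul, hc, smul_mul_assoc, one_mul, mul_smul_comm, mul_one]
    exact Cfsg.Agent.SignalizersComponents.ComponentImage.isQuasisimple_of_surjective hT
      (π.comp ψ).rangeRestrict (π.comp ψ).rangeRestrict_surjective hnt

end

section Factor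

variable {F : Type} [Field F] [Fintype F] {n : ℕ} {L : Type} [Field L] {w : ℕ}
  {φ : Matrix (Fin w) (Fin w) L →ₙ+* Matrix (Fin n) (Fin n) F} {E : Subalgebra F (Matrix (Fin n) (Fin n) F)}

theorem phi_mul_one (m : Matrix (Fin w) (Fin w) L) : φ m * φ 1 = φ m := by rw [← map_mul, mul_one]
theorem phi_one_mul (m : Matrix (Fin w) (Fin w) L) : φ 1 * φ m = φ m := by rw [← map_mul, one_mul]

theorem phi_mem (hr : ∀ x, (∃ m, φ m = x) ↔ x ∈ E ∧ φ 1 * x = x) (m : Matrix (Fin w) (Fin w) L) : φ m ∈ E :=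
  ((hr _).1 ⟨m, rfl⟩).1

/-- `s ↦ φ s + (1 - φ 1)` -/
def psi (φ : Matrix (Fin w) (Fin w) L →ₙ+* Matrix (Fin n) (Fin n) F) :
    Matrix (Fin w) (Fin w) L →* Matrix (Fin n) (Fin n) F where
  toFun s := φ s + (1 - φ 1)
  map_one' := by rw [add_sub_cancel]
  map_mul' s t := by
    have e1 : φ s * (1 - φ 1) = 0 := by rw [mul_sub, mul_one, phi_mul_one, sub_self]
    have e2 : (1 - φ 1) * φ t = 0 := by rw [sub_mul, one_mul, phi_one_mul, sub_self]
    have e3 : (1 - φ 1) * (1 - φ 1) = 1 - φ 1 := by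
      rw [mul_sub, mul_one, sub_mul, one_mul, phi_mul_one, sub_self, sub_zero]
    rw [mul_add, add_mul, add_mul, e1, e2, e3, map_mul, add_zero, zero_add]

theorem psi_apply (s : Matrix (Fin w) (Fin w) L) : psi φ s = φ s + (1 - φ 1) := rfl

/-- conjugation by the units of `E` -/
theorem conj_phi (hφ : Function.Injective φ) (hr : ∀ x, (∃ m, φ m = x) ↔ x ∈ E ∧ φ 1 * x = x)
    (hc : ∀ x ∈ E, φ 1 * x = x * φ 1) {u v : Matrix (Fin n) (Fin n) F} (hu : u ∈ E) (hv : v ∈ E) (huv : u * v = 1) :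
    ∃ m m' : Matrix (Fin w) (Fin w) L, m * m' = 1 ∧ ∀ s, u * φ s * v = φ (m * s * m') := by
  have h1 : ∀ u ∈ E, ∃ m, φ m = u * φ 1 := by
    intro u hu
    rw [hr]
    refine ⟨mul_mem hu (phi_mem hr 1), ?_⟩
    rw [← hc u hu, ← mul_assoc, ← map_mul, mul_one]
  obtain ⟨m, hm⟩ := h1 u hu
  obtain ⟨m', hm'⟩ := h1 v hv
  refine ⟨m, m', ?_, ?_⟩
  · apply hφ
    rw [map_mul, hm, hm', mul_assoc, ← mul_assoc (φ 1) v, hc v hv, mul_assoc v, phi_one_mul, ← mul_assoc, huv, one_mul]
  · intro s
    rw [map_mul, map_mul, hm, hm', ← hc v hv, mul_assoc u (φ 1), phi_one_mul, ← mul_assoc, mul_assoc u (φ s) (φ 1),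
      phi_mul_one]

theorem psi_conj (hφ : Function.Injective φ) (hr : ∀ x, (∃ m, φ m = x) ↔ x ∈ E ∧ φ 1 * x = x)
    (hc : ∀ x ∈ E, φ 1 * x = x * φ 1) {u v : Matrix (Fin n) (Fin n) F} (hu : u ∈ E) (hv : v ∈ E) (huv : u * v = 1) :
    ∃ m m' : Matrix (Fin w) (Fin w) L, m * m' = 1 ∧ ∀ s, u * psi φ s * v = psi φ (m * s * m') := by
  obtain ⟨m, m', h1, h2⟩ := conj_phi hφ hr hc hu hv huv
  refine ⟨m, m', h1, fun s => ?_⟩
  rw [psi_apply, psi_apply, mul_add, add_mul, h2, mul_sub, sub_mul, mul_one, huv, ← hc u hu, mul_assoc (φ 1) u, huv, mul_one]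

theorem finite_L (hφ : Function.Injective φ) (hw : 1 ≤ w) : Finite L := by
  have h1 : Function.Injective (fun c : L => φ (Matrix.diagonal fun _ => c)) := by
    intro c c' h
    have h2 := congrFun (congrFun (hφ h) ⟨0, by omega⟩) ⟨0, by omega⟩
    simpa using h2
  exact Finite.of_injective _ h1

/-- `F` embeds in `L` -/
theorem card_le (hφ : Function.Injective φ) (hr : ∀ x, (∃ m, φ m = x) ↔ x ∈ E ∧ φ 1 * x = x) (hw : 1 ≤ w) :
    Nat.card F ≤ Nat.card L := by
  have hfin := finite_L hφ hw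
  have h1 : ∀ c : F, ∃ l : L, φ (Matrix.scalar (Fin w) l) = c • φ 1 := by
    intro c
    obtain ⟨m, hm⟩ := (hr (c • φ 1)).2 ⟨E.smul_mem (phi_mem hr 1) c, by rw [mul_smul_comm, ← map_mul, mul_one]⟩
    have h2 : m ∈ Set.range (Matrix.scalar (Fin w) : L →+* Matrix (Fin w) (Fin w) L) := by
      rw [Matrix.mem_range_scalar_iff_commute_single']
      intro i j
      apply hφ
      rw [map_mul, map_mul, hm, smul_mul_assoc, mul_smul_comm, phi_one_mul, phi_mul_one]
    obtain ⟨l, hl⟩ := h2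
    exact ⟨l, by rw [hl, hm]⟩
  choose f hf using h1
  have hf' : Function.Injective f := by
    intro c c' h
    have h2 : c • φ 1 = c' • φ 1 := by rw [← hf, ← hf, h]
    have h3 : φ 1 ≠ 0 := by
      intro h4
      rw [← map_zero φ] at h4
      have h5 := congrFun (congrFun (hφ h4) ⟨0, by omega⟩) ⟨0, by omega⟩
      simp at h5
    have h4 : (c - c') • φ 1 = 0 := by rw [sub_smul, h2, sub_self]
    rcases smul_eq_zero.1 h4 with h5 | h5
    · exact sub_eq_zero.1 h5
    · exact absurd h5 h3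
  exact Nat.card_le_card_of_injective f hf'

theorem card_eq (hφ : Function.Injective φ) (hr : ∀ x, (∃ m, φ m = x) ↔ x ∈ E ∧ φ 1 * x = x) (hw : 1 ≤ w)
    (h3 : Nat.card L ≤ 3) : Nat.card L = Nat.card F ∧ Nat.card F ≤ 3 := by
  have hfin := finite_L hφ hw
  have h1 := card_le hφ hr hw
  have h2 : 2 ≤ Nat.card F := Finite.one_lt_card
  refine ⟨?_, h1.trans h3⟩
  by_contra hne
  have hF : Nat.card F = 2 := by omega
  have hL : Nat.card L = 3 := by omega
  have e1 : (2 : F) = 0 := by
    have := Nat.cast_card_eq_zero F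
    rw [← Nat.card_eq_fintype_card, hF] at this
    exact_mod_cast this
  have hfl : Fintype L := Fintype.ofFinite L
  have e2 : (3 : L) = 0 := by
    have := Nat.cast_card_eq_zero L
    rw [← Nat.card_eq_fintype_card, hL] at this
    exact_mod_cast this
  have e3 : φ (1 + 1) = 0 := by
    rw [map_add, ← two_smul F, e1, zero_smul]
  rw [← map_zero φ] at e3
  have e4 := congrFun (congrFun (hφ e3) ⟨0, by omega⟩) ⟨0, by omega⟩
  have e5 : (1 : L) + 1 = 0 := by simpa using e4
  have e6 : (1 : L) = 0 := by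
    calc (1 : L) = 3 - (1 + 1) := by norm_num
      _ = 0 := by rw [e2, e5, sub_zero]
  exact one_ne_zero e6

end Factor

section SL

variable {G : Type u} [Group G] [Finite G] {N A : Subgroup G} {r : ℕ} {F : Type} [Field F] [Fintype F] {n : ℕ}

theorem quasi_sl {L : Type} [Field L] [Finite L] {w : ℕ} (hw : 2 ≤ w) (h : ¬ (w = 2 ∧ Nat.card L ≤ 3)) :
    IsQuasisimple (Matrix.SpecialLinearGroup (Fin w) L) := by
  rcases Nat.lt_or_ge w 3 with h1 | h1
  · have h2 : w = 2 := by omega
    subst h2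
    exact Cfsg.Agent.SignalizersComponents.SLQuasisimple.isQuasisimple_two (by
      by_contra h3
      exact h ⟨rfl, by omega⟩)
  · exact Cfsg.Agent.SignalizersComponents.SLQuasisimple.isQuasisimple_of_three_le (by simpa using h1)

/-- **the simple factors of a proper invariant subalgebra**, linear case -/
theorem comp_sl {π : Matrix.SpecialLinearGroup (Fin n) F →* G} (h : Loc N A r) (hM : Model N (iSL n F) π)
    (E : Subalgebra F (Matrix (Fin n) (Fin n) F)) (hE : Inv (iSL n F) π A E) (hne : E ≠ ⊤)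
    (L : Type) [Field L] (w : ℕ) (φ : Matrix (Fin w) (Fin w) L →ₙ+* Matrix (Fin n) (Fin n) F) (hφ : Function.Injective φ)
    (hr : ∀ x, (∃ m, φ m = x) ↔ x ∈ E ∧ φ 1 * x = x) (hc : ∀ x ∈ E, φ 1 * x = x * φ 1) :
    w ≤ 1 ∨ (w = 2 ∧ Nat.card L = Nat.card F ∧ Nat.card F ≤ 3) := by
  rcases Nat.lt_or_ge 1 w with hw | hw
  · right
    have hfin := finite_L hφ (by omega)
    by_cases h3 : w = 2 ∧ Nat.card L ≤ 3
    · exact ⟨h3.1, card_eq hφ hr (by omega) h3.2⟩
    · exfalso
      have hq := quasi_sl (L := L) (by omega) h3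
      -- the determinant
      let δ : Matrix.SpecialLinearGroup (Fin w) L →* F :=
        { toFun := fun s => (psi φ (s : Matrix (Fin w) (Fin w) L)).det
          map_one' := by rw [Matrix.SpecialLinearGroup.coe_one, map_one, Matrix.det_one]
          map_mul' := fun s t => by rw [Matrix.SpecialLinearGroup.coe_mul, map_mul, Matrix.det_mul] }
      have hδ : ∀ s : Matrix.SpecialLinearGroup (Fin w) L, (psi φ (s : Matrix (Fin w) (Fin w) L)).det = 1 := by
        intro s
        have h1 := Cfsg.Agent.SignalizersComponents.CompBasic.hom_eq_one_of_perfect hq.1 δ.toHomUnits s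
        exact congrArg (fun u : Fˣ => (u : F)) h1
      let ψ : Matrix.SpecialLinearGroup (Fin w) L →* Matrix.SpecialLinearGroup (Fin n) F :=
        { toFun := fun s => ⟨psi φ (s : Matrix (Fin w) (Fin w) L), hδ s⟩
          map_one' := Subtype.ext (by
            show psi φ ((1 : Matrix.SpecialLinearGroup (Fin w) L) : Matrix (Fin w) (Fin w) L) = 1
            rw [Matrix.SpecialLinearGroup.coe_one, map_one])
          map_mul' := fun s t => Subtype.ext (by
            show psi φ ((s * t : Matrix.SpecialLinearGroup (Fin w) L) : Matrix (Fin w) (Fin w) L) = psi φ _ * psi φ _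
            rw [Matrix.SpecialLinearGroup.coe_mul, map_mul]) }
      have hmt : ∀ s, mt (iSL n F) (ψ s) = psi φ (s : Matrix (Fin w) (Fin w) L) := fun s => rfl
      have hψ : Function.Injective ψ := by
        intro s t hst
        have h1 : psi φ (s : Matrix (Fin w) (Fin w) L) = psi φ (t : Matrix (Fin w) (Fin w) L) := by
          rw [← hmt, ← hmt, hst]
        rw [psi_apply, psi_apply] at h1
        exact Subtype.ext (hφ (add_right_cancel h1))
      have hfS : Finite (Matrix.SpecialLinearGroup (Fin n) F) := finite_S hM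
      refine comp_false h hM hE hne hq ψ hψ ?_ ?_
      · intro t
        rw [hmt, psi_apply]
        exact add_mem (phi_mem hr _) (sub_mem (one_mem E) (phi_mem hr 1))
      · intro s hs t
        have hs' : s ∈ HE (iSL n F) E := hs
        obtain ⟨m, m', h1, h2⟩ := psi_conj hφ hr hc hs (mem_HE.1 (inv_mem hs')) (mt_mul_inv s)
        have h4 : (m * (t : Matrix (Fin w) (Fin w) L) * m').det = 1 := by
          rw [Matrix.det_mul, Matrix.det_mul, t.2, mul_one, ← Matrix.det_mul, h1, Matrix.det_one]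
        refine ⟨⟨_, h4⟩, ?_⟩
        apply mt_inj hM.inj
        rw [mt_mul, mt_mul, hmt]
        exact h2 _
  · exact Or.inl hw

end SL

end Cfsg.Agent.H748.TW
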