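import Cfsg.Agent.H748.TW.SubBase

/-!
# S3694, T3: invariant subalgebras are semisimple, linear case (helper748)
-/

set_option autoImplicit false
set_option linter.unusedSectionVars false

namespace Cfsg.Agent.H748.TW

open Subgroup Cfsg Cfsg.Agent.H607.TW

universe u

section

variable {G : Type u} [Group G] {N A : Subgroup G} {r : ℕ} {F : Type} [Field F] [Fintype F] {n : ℕ} {S : Type}
  [Group S] {ι : S →* Matrix.GeneralLinearGroup (Fin n) F} {π : S →* G}

theorem tauE_surj {E : Subalgebra F (Matrix (Fin n) (Fin n) F)} {τ : Matrix (Fin n) (Fin n) F ≃+ Matrix (Fin n) (Fin n) F}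
    (hE : ∀ x ∈ E, τ x ∈ E) : ∀ y ∈ E, ∃ x ∈ E, τ x = y := by
  have h1 : Function.Injective (fun x : E => (⟨τ x, hE x x.2⟩ : E)) := by
    intro x y hxy
    exact Subtype.ext (τ.injective (congrArg Subtype.val hxy))
  have h2 := Finite.surjective_of_injective h1
  intro y hy
  obtain ⟨x, hx⟩ := h2 ⟨y, hy⟩
  exact ⟨x, x.2, congrArg Subtype.val hx⟩

theorem nil_coe {E : Subalgebra F (Matrix (Fin n) (Fin n) F)} {x : E} :
    IsNilpotent x ↔ IsNilpotent (x : Matrix (Fin n) (Fin n) F) := by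
  constructor
  · rintro ⟨k, hk⟩
    exact ⟨k, by simpa using congrArg Subtype.val hk⟩
  · rintro ⟨k, hk⟩
    exact ⟨k, Subtype.ext (by simpa using hk)⟩

theorem nil_tau {τ : Matrix (Fin n) (Fin n) F ≃+ Matrix (Fin n) (Fin n) F} {g : G} (h : Ind ι π g τ)
    {x : Matrix (Fin n) (Fin n) F} (hx : IsNilpotent x) : IsNilpotent (τ x) := by
  obtain ⟨k, hk⟩ := hx
  exact ⟨k, by rw [← tau_pow h, hk, map_zero]⟩

/-- the lifts preserve the radical -/
theorem jac_tau {E : Subalgebra F (Matrix (Fin n) (Fin n) F)} {τ : Matrix (Fin n) (Fin n) F ≃+ Matrix (Fin n) (Fin n) F}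
    {g : G} (h : Ind ι π g τ) (hE : ∀ x ∈ E, τ x ∈ E) {j : E} (hj : j ∈ Ring.jacobson E) :
    (⟨τ j, hE j j.2⟩ : E) ∈ Ring.jacobson E := by
  rw [mem_jac] at hj ⊢
  rintro ⟨y, hy⟩
  rw [nil_coe]
  show IsNilpotent (y * τ (j : Matrix (Fin n) (Fin n) F))
  obtain ⟨x, hx, rfl⟩ := tauE_surj hE y hy
  have h1 : IsNilpotent (x * (j : Matrix (Fin n) (Fin n) F)) := nil_coe.1 (hj ⟨x, hx⟩)
  rcases h with h' | h'
  · rw [← h'.1]
    exact nil_tau (Or.inl h') h1
  · rw [← h'.1]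
    exact nil_tau (Or.inr h') (nil_comm h1)

/-- the elements of `S` congruent to one modulo the radical -/
def PJ (ι : S →* Matrix.GeneralLinearGroup (Fin n) F) [Finite S] (E : Subalgebra F (Matrix (Fin n) (Fin n) F)) :
    Subgroup S where
  carrier := {s | ∃ j : E, j ∈ Ring.jacobson E ∧ mt ι s = 1 + j}
  one_mem' := ⟨0, zero_mem _, by rw [mt_one]; simp⟩
  mul_mem' := by
    rintro a b ⟨j, hj, hja⟩ ⟨k, hk, hkb⟩
    refine ⟨j + k + j * k, add_mem (add_mem hj hk) (Ideal.mul_mem_left _ _ hk), ?_⟩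
    rw [mt_mul, hja, hkb]
    push_cast
    noncomm_ring
  inv_mem' := by
    rintro a ⟨j, hj, hja⟩
    have h1 : ∀ k : ℕ, ∃ j : E, j ∈ Ring.jacobson E ∧ mt ι (a ^ k) = 1 + j := by
      intro k
      induction k with
      | zero => exact ⟨0, zero_mem _, by rw [pow_zero, mt_one]; simp⟩
      | succ k ih =>
        obtain ⟨l, hl, hla⟩ := ih
        refine ⟨l + j + l * j, add_mem (add_mem hl hj) (Ideal.mul_mem_left _ _ hj), ?_⟩
        rw [pow_succ, mt_mul, hla, hja]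
        push_cast
        noncomm_ring
    have h2 : a⁻¹ = a ^ (orderOf a - 1) := by
      rw [inv_eq_iff_mul_eq_one, ← pow_succ', Nat.sub_add_cancel (orderOf_pos a), pow_orderOf_eq_one]
    show ∃ j : E, j ∈ Ring.jacobson E ∧ mt ι a⁻¹ = 1 + j
    rw [h2]
    exact h1 _

theorem mem_PJ [Finite S] {E : Subalgebra F (Matrix (Fin n) (Fin n) F)} {s : S} :
    s ∈ PJ ι E ↔ ∃ j : E, j ∈ Ring.jacobson E ∧ mt ι s = 1 + j := Iff.rfl

theorem PJ_norm [Finite S] (hM : Model N ι π) {E : Subalgebra F (Matrix (Fin n) (Fin n) F)} (hE : Inv ι π A E) :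
    A ≤ normalizer (((PJ ι E).map π : Subgroup G) : Set G) := by
  apply le_normalizer_of
  rintro a ha _ ⟨s, ⟨j, hj, hs⟩, rfl⟩
  obtain ⟨τ, hτ⟩ := exists_lift hM a
  have key : ∀ s' : S, mt ι s' = τ (mt ι s) → s' ∈ PJ ι E := by
    intro s' hs'
    refine ⟨⟨τ j, hE a ha τ hτ j j.2⟩, jac_tau hτ (hE a ha τ hτ) hj, ?_⟩
    rw [hs', hs, map_add, tau_one hτ]
  rcases hτ with hτ' | hτ'
  · obtain ⟨s', h1, h2⟩ := hτ'.2 s
    exact ⟨s', key s' h1, h2⟩
  · obtain ⟨s', h1, h2⟩ := hτ'.2 s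
    rw [← h2]
    exact inv_mem ⟨s', key s' h1, rfl⟩

theorem one_add_pow {p : ℕ} [hp : Fact p.Prime] [CharP F p] (hn : 0 < n) {x : Matrix (Fin n) (Fin n) F} (hx : IsNilpotent x) :
    ∃ k : ℕ, (1 + x) ^ p ^ k = 1 := by
  obtain ⟨k, hk⟩ := hx
  have : Nonempty (Fin n) := ⟨⟨0, hn⟩⟩
  refine ⟨k, ?_⟩
  have h1 : CharP (Matrix (Fin n) (Fin n) F) p := inferInstance
  rw [add_pow_char_pow_of_commute _ _ (Commute.one_left x), one_pow]
  have h2 : x ^ p ^ k = 0 := pow_eq_zero_of_le (Nat.lt_pow_self hp.out.one_lt).le hk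
  rw [h2, add_zero]

theorem PJ_pgroup [Finite S] (hM : Model N ι π) {p : ℕ} [hp : Fact p.Prime] [CharP F p]
    (E : Subalgebra F (Matrix (Fin n) (Fin n) F)) : IsPGroup p ((PJ ι E).map π : Subgroup G) := by
  rintro ⟨_, s, ⟨j, hj, hs⟩, rfl⟩
  have h1 : IsNilpotent (j : Matrix (Fin n) (Fin n) F) := by
    have := mem_jac.1 hj 1
    rw [one_mul] at this
    exact nil_coe.1 this
  have hn := hM.two
  obtain ⟨k, hk⟩ := one_add_pow (p := p) (by omega) h1
  refine ⟨k, Subtype.ext ?_⟩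
  show (π s) ^ p ^ k = 1
  rw [← map_pow]
  have h2 : s ^ p ^ k = 1 := by
    apply mt_inj hM.inj
    have h3 : ∀ m : ℕ, mt ι (s ^ m) = mt ι s ^ m := by
      intro m
      induction m with
      | zero => rw [pow_zero, pow_zero, mt_one]
      | succ m ih => rw [pow_succ, mt_mul, ih, pow_succ]
    rw [h3, hs, hk, mt_one]
  rw [h2, map_one]

theorem PJ_bot [Finite G] [Finite S] (h : Loc N A r) (hr : ¬ r ∣ Fintype.card F) (hM : Model N ι π)
    {E : Subalgebra F (Matrix (Fin n) (Fin n) F)} (hE : Inv ι π A E) : (PJ ι E).map π = ⊥ := by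
  obtain ⟨p, hp⟩ := CharP.exists F
  have hpp : p.Prime := (CharP.char_is_prime_or_zero F p).resolve_right (CharP.char_ne_zero_of_finite F p)
  have hpf : Fact p.Prime := ⟨hpp⟩
  have hpr : p ≠ r := by
    rintro rfl
    exact hr ((CharP.cast_eq_zero_iff F p _).1 (Nat.cast_card_eq_zero F))
  have hP := PJ_pgroup (p := p) hM E
  rcases le_or_eq h (map_le_N hM _) (PJ_norm hM hE) with h1 | h1
  · exact bot_of_pgroup h h1 (PJ_norm hM hE) hpp hpr hP
  · rw [h1] at hP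
    exact (not_pgroup h hpp hP).elim

/-- if all elements `1 + j`, `j` in the radical, are in `S`, then the radical is trivial -/
theorem semi_of [Finite G] [Finite S] (h : Loc N A r) (hr : ¬ r ∣ Fintype.card F) (hM : Model N ι π)
    {E : Subalgebra F (Matrix (Fin n) (Fin n) F)} (hE : Inv ι π A E)
    (hS : ∀ j : E, j ∈ Ring.jacobson E → ∃ s : S, mt ι s = 1 + j) : IsSemisimpleRing E := by
  rw [IsArtinianRing.isSemisimpleRing_iff_jacobson, eq_bot_iff]
  intro j hj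
  obtain ⟨s, hs⟩ := hS j hj
  have h1 : π s ∈ (PJ ι E).map π := ⟨s, ⟨j, hj, hs⟩, rfl⟩
  rw [PJ_bot h hr hM hE, mem_bot] at h1
  obtain ⟨c, hc⟩ := (hM.ker s).1 h1
  have h2 : IsNilpotent (j : Matrix (Fin n) (Fin n) F) := by
    have := mem_jac.1 hj 1
    rw [one_mul] at this
    exact nil_coe.1 this
  have h3 : (j : Matrix (Fin n) (Fin n) F) = (c - 1) • 1 := by
    rw [sub_smul, one_smul, ← hc, hs]
    abel
  obtain ⟨k, hk⟩ := h2
  rw [h3, smul_pow, one_pow] at hk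
  have h4 : (c - 1) ^ k = 0 := by
    have hn := hM.two
    have h5 := congrFun (congrFun hk ⟨0, by omega⟩) ⟨0, by omega⟩
    simpa using h5
  have h5 : c - 1 = 0 := IsReduced.eq_zero _ ⟨k, h4⟩
  rw [Submodule.mem_bot]
  apply Subtype.ext
  rw [h3, h5, zero_smul]
  rfl

theorem det_one_add (hn : 0 < n) {x : Matrix (Fin n) (Fin n) F} (hx : IsNilpotent x) : (1 + x).det = 1 := by
  obtain ⟨p, hp⟩ := CharP.exists F
  have hpp : p.Prime := (CharP.char_is_prime_or_zero F p).resolve_right (CharP.char_ne_zero_of_finite F p)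
  have hpf : Fact p.Prime := ⟨hpp⟩
  obtain ⟨k, hk⟩ := one_add_pow (p := p) hn hx
  have h1 : ((1 + x).det - 1) ^ p ^ k = 0 := by
    rw [sub_pow_char_pow, one_pow, ← Matrix.det_pow, hk, Matrix.det_one, sub_self]
  exact sub_eq_zero.1 (IsReduced.eq_zero _ ⟨_, h1⟩)

/-- **invariant subalgebras are semisimple**, linear case -/
theorem semi_sl [Finite G] {π : Matrix.SpecialLinearGroup (Fin n) F →* G} (h : Loc N A r) (hr : ¬ r ∣ Fintype.card F)
    (hM : Model N (iSL n F) π) : SemiAx (iSL n F) π A := by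
  intro E hE
  refine semi_of h hr hM hE fun j hj => ?_
  have hn := hM.two
  have h2 : IsNilpotent (j : Matrix (Fin n) (Fin n) F) := by
    have := mem_jac.1 hj 1
    rw [one_mul] at this
    exact nil_coe.1 this
  exact ⟨⟨1 + j, det_one_add (by omega) h2⟩, rfl⟩

end

end Cfsg.Agent.H748.TW
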